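import Mathlib
import Cfsg.Agent.H19.Scn3.Basic
import Cfsg.Agent.Transfer.Extraspecial
set_option linter.all false

/-!
# Special 2-groups: the squaring map and a counting lemma
-/

set_option autoImplicit false

namespace Cfsg.Agent.H19.Scn3

open Subgroup
open scoped commutatorElement
open Cfsg.Agent.Transfer.CentralComm

theorem seven_aux {M : Type*} [AddCommGroup M] (a b c d e f : M) :
    a + b + d + c + (e + f) + (a + b + d) + (a + c + e) + (b + c + f) + a + b + c =
      2 • (2 • a) + 2 • (2 • b) + 2 • (2 • c) + 2 • d + 2 • e + 2 • f := by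
  abel

theorem seven_add {X M : Type*} [Group X] [AddCommGroup M] (q : X → M) (β : X → X → M)
    (hq : ∀ g k : X, q (g * k) = q g + q k + β k g) (hβ : ∀ g k l : X, β g (k * l) = β g k + β g l)
    (h2 : ∀ m : M, 2 • m = 0) (x y t : X) :
    q (x * y * t) + q (x * y) + q (x * t) + q (y * t) + q x + q y + q t = 0 := by
  rw [hq (x * y) t, hq x y, hq x t, hq y t, hβ, seven_aux]
  simp only [h2, add_zero]

/-- squares and commutators are central of exponent two -/
structure HQ (X : Type*) [Group X] : Prop where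
  comm : ∀ x y : X, ⁅x, y⁆ ∈ center X
  sq : ∀ x : X, x ^ 2 ∈ center X
  exp : ∀ z ∈ center X, z ^ 2 = 1

namespace HQ

variable {X : Type*} [Group X] (h : HQ X)

include h

theorem zz {z : X} (hz : z ∈ center X) : z * z = 1 := by rw [← pow_two]; exact h.exp z hz

theorem mul_sq (x y : X) : (x * y) ^ 2 = x ^ 2 * y ^ 2 * ⁅y, x⁆ := by
  have := mul_pow_choose h.comm x y 2
  simpa using this

/-- the product of the seven squares of a "plane plus point" is trivial -/
theorem seven (x y t : X) :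
    (x * y * t) ^ 2 * (x * y) ^ 2 * (x * t) ^ 2 * (y * t) ^ 2 * x ^ 2 * y ^ 2 * t ^ 2 = 1 := by
  -- work in the centre, written additively
  let _ : CommGroup (center X) :=
    { (inferInstance : Group (center X)) with
      mul_comm := fun a b => Subtype.ext (mem_center_iff.mp b.2 a) }
  let q : X → Additive (center X) := fun g => Additive.ofMul ⟨g ^ 2, h.sq g⟩
  let β : X → X → Additive (center X) := fun g k => Additive.ofMul ⟨⁅g, k⁆, h.comm g k⟩
  have hq : ∀ g k : X, q (g * k) = q g + q k + β k g := by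
    intro g k
    apply Additive.toMul.injective
    apply Subtype.ext
    exact h.mul_sq g k
  have hβ : ∀ g k l : X, β g (k * l) = β g k + β g l := by
    intro g k l
    apply Additive.toMul.injective
    apply Subtype.ext
    exact comm_mul_right h.comm g k l
  have h2 : ∀ m : Additive (center X), 2 • m = 0 := by
    intro m
    apply Additive.toMul.injective
    apply Subtype.ext
    exact h.exp _ (Additive.toMul m).2
  have key := seven_add q β hq hβ h2 x y t
  have := congrArg (fun m => ((Additive.toMul m : center X) : X)) key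
  exact this

end HQ

/-- the subgroup `K ∪ x⁻¹K` for a normal subgroup `K` and `x² ∈ K` -/
def adj' {X : Type*} [Group X] (K : Subgroup X) (hKn : K.Normal) (x : X) (hx : x * x ∈ K) : Subgroup X where
  carrier := {y | y ∈ K ∨ x * y ∈ K}
  one_mem' := Or.inl K.one_mem
  mul_mem' := by
    rintro a b (ha | ha) (hb | hb)
    · exact Or.inl (K.mul_mem ha hb)
    · right
      have h1 : x * (a * b) = (x * a * x⁻¹) * (x * b) := by group
      rw [h1]
      exact K.mul_mem (hKn.conj_mem a ha x) hb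
    · right
      rw [← mul_assoc]
      exact K.mul_mem ha hb
    · left
      have h1 : a * b = (x⁻¹ * (x * a) * x⁻¹⁻¹) * (x * x)⁻¹ * (x * b) := by group
      rw [h1]
      exact K.mul_mem (K.mul_mem (hKn.conj_mem _ ha _) (K.inv_mem hx)) hb
  inv_mem' := by
    rintro a (ha | ha)
    · exact Or.inl (K.inv_mem ha)
    · right
      have h1 : x * a⁻¹ = (x * (x * a)⁻¹ * x⁻¹) * (x * x) := by group
      rw [h1]
      exact K.mul_mem (hKn.conj_mem _ (K.inv_mem ha) _) hx

section adj'

variable {X : Type*} [Group X] (K : Subgroup X) (hKn : K.Normal) (x : X) (hx : x * x ∈ K)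

theorem mem_adj' (y : X) : y ∈ adj' K hKn x hx ↔ y ∈ K ∨ x * y ∈ K := Iff.rfl

theorem le_adj' : K ≤ adj' K hKn x hx := fun _ hy => Or.inl hy

theorem self_mem_adj' : x ∈ adj' K hKn x hx := Or.inr hx

theorem card_adj' [Finite X] : Nat.card (adj' K hKn x hx) ≤ 2 * Nat.card K := by
  have h1 : ((adj' K hKn x hx : Subgroup X) : Set X) ⊆ (K : Set X) ∪ (fun k => x⁻¹ * k) '' (K : Set X) := by
    rintro y (hy | hy)
    · exact Or.inl hy
    · right
      exact ⟨x * y, hy, by group⟩
  have h2 := Set.ncard_le_ncard h1 (Set.toFinite _)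
  have h3 := Set.ncard_union_le (K : Set X) ((fun k => x⁻¹ * k) '' (K : Set X))
  have h4 := Set.ncard_image_le (f := fun k => x⁻¹ * k) (Set.toFinite (K : Set X))
  have h5 : (K : Set X).ncard = Nat.card K := rfl
  have h6 : ((adj' K hKn x hx : Subgroup X) : Set X).ncard = Nat.card (adj' K hKn x hx) := rfl
  omega

theorem adj'_le (C : Subgroup X) (hK : K ≤ C) (hxC : x ∈ C) : adj' K hKn x hx ≤ C := by
  rintro y (hy | hy)
  · exact hK hy
  · have h1 := C.mul_mem (C.inv_mem hxC) (hK hy)
    rwa [inv_mul_cancel_left] at h1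

end adj'

/-- a subgroup containing all commutators is normal -/
theorem normal_of_comm {X : Type*} [Group X] (K : Subgroup X) (hK : ∀ x y : X, ⁅x, y⁆ ∈ K) : K.Normal := by
  refine ⟨fun n hn g => ?_⟩
  have h1 : g * n * g⁻¹ = ⁅g, n⁆ * n := by rw [commutatorElement_def]; group
  rw [h1]
  exact K.mul_mem (hK g n) hn

/-- Counting lemma: if the squares of the elements of `C ∖ K` lie in a nontrivial coset `s N`, then `|C| ≤ 4 |K|`. -/
theorem HQ.card_le {X : Type*} [Group X] [Finite X] (h : HQ X) (K C : Subgroup X)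
    (hZK : center X ≤ K) (N : Subgroup X) (s : X) (hsZ : s ∈ center X) (hsN : s ∉ N)
    (hC : ∀ x ∈ C, x ∉ K → x ^ 2 * s ∈ N) : Nat.card C ≤ 4 * Nat.card K := by
  by_contra hcon
  push Not at hcon
  have hKn : K.Normal := normal_of_comm K (fun x y => hZK (h.comm x y))
  have hKpos : 0 < Nat.card K := Nat.card_pos
  have hex : ∀ L : Subgroup X, Nat.card L < Nat.card C → ∃ y ∈ C, y ∉ L := by
    intro L hL
    by_contra hc
    push Not at hc
    have := Subgroup.card_le_of_le (show C ≤ L from hc)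
    omega
  obtain ⟨x, hxC, hxK⟩ := hex K (by omega)
  have hxx : x * x ∈ K := hZK (by rw [← pow_two]; exact h.sq x)
  set K₁ := adj' K hKn x hxx with hK₁
  have hK₁c : Nat.card K₁ ≤ 2 * Nat.card K := card_adj' K hKn x hxx
  obtain ⟨y, hyC, hyK⟩ := hex K₁ (by omega)
  have hZK₁ : center X ≤ K₁ := hZK.trans (le_adj' K hKn x hxx)
  have hK₁n : K₁.Normal := normal_of_comm K₁ (fun x y => hZK₁ (h.comm x y))
  have hyy : y * y ∈ K₁ := hZK₁ (by rw [← pow_two]; exact h.sq y)
  set K₂ := adj' K₁ hK₁n y hyy with hK₂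
  have hK₂c : Nat.card K₂ ≤ 2 * Nat.card K₁ := card_adj' K₁ hK₁n y hyy
  obtain ⟨t, htC, htK⟩ := hex K₂ (by omega)
  rw [mem_adj', not_or] at hyK
  rw [mem_adj', mem_adj', mem_adj', not_or, not_or, not_or] at htK
  obtain ⟨hyK, hxyK⟩ := hyK
  obtain ⟨⟨htK, hxtK⟩, hytK, hxytK⟩ := htK
  rw [← mul_assoc] at hxytK
  have e1 := hC _ hxC hxK
  have e2 := hC _ hyC hyK
  have e3 := hC _ htC htK
  have e4 := hC _ (C.mul_mem hxC hyC) hxyK
  have e5 := hC _ (C.mul_mem hxC htC) hxtK
  have e6 := hC _ (C.mul_mem hyC htC) hytK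
  have e7 := hC _ (C.mul_mem (C.mul_mem hxC hyC) htC) hxytK
  have h7 := h.seven x y t
  apply hsN
  have hss : s * s = 1 := h.zz hsZ
  have hsc : ∀ g : X, g * s = s * g := fun g => mem_center_iff.mp hsZ g
  have hprod := N.mul_mem (N.mul_mem (N.mul_mem (N.mul_mem (N.mul_mem (N.mul_mem e7 e4) e5) e6) e1) e2) e3
  have h8 : (x * y * t) ^ 2 * s * ((x * y) ^ 2 * s) * ((x * t) ^ 2 * s) * ((y * t) ^ 2 * s) * (x ^ 2 * s) *
      (y ^ 2 * s) * (t ^ 2 * s) = s := by
    have h9 : (x * y * t) ^ 2 * s * ((x * y) ^ 2 * s) * ((x * t) ^ 2 * s) * ((y * t) ^ 2 * s) * (x ^ 2 * s) *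
        (y ^ 2 * s) * (t ^ 2 * s) = ((x * y * t) ^ 2 * (x * y) ^ 2 * (x * t) ^ 2 * (y * t) ^ 2 * x ^ 2 * y ^ 2 *
        t ^ 2) * (s * s * (s * s) * (s * s)) * s := by
      generalize (x * y * t) ^ 2 = a1
      generalize (x * y) ^ 2 = a2
      generalize (x * t) ^ 2 = a3
      generalize (y * t) ^ 2 = a4
      generalize x ^ 2 = a5
      generalize y ^ 2 = a6
      generalize t ^ 2 = a7
      have hs1 : ∀ g k : X, g * s * (k * s) = g * k * (s * s) := by
        intro g k
        rw [mul_assoc g s, ← mul_assoc s k s, ← hsc k]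
        simp only [mul_assoc]
      rw [hs1 a1 a2, hss, mul_one, ← mul_assoc (a1 * a2) a3 s, hs1 (a1 * a2 * a3) a4, hss, mul_one,
        ← mul_assoc _ a5 s, hs1 _ a6, hss, mul_one, ← mul_assoc _ a7 s, one_mul, mul_one, mul_one]
    rw [h9, h7, hss]
    simp
  rwa [h8] at hprod

end Cfsg.Agent.H19.Scn3
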