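import Mathlib
import Cfsg.Agent.H19.Scn3.Fpf
import Cfsg.Agent.H19.Scn3.Quad
set_option linter.all false

/-!
# Special 2-groups with centre of order four, all involutions central, with odd automorphisms: order 64
-/

set_option autoImplicit false

namespace Cfsg.Agent.H19.Scn3

open Subgroup
open scoped commutatorElement
open Cfsg.Agent.Transfer.CentralComm Cfsg.Agent.Transfer.Extraspecial

/-- special 2-group with `NE` and a group `A` of odd automorphisms fixing no coset of the centre -/
structure HS (X : Type*) [Group X] (A : Subgroup (MulAut X)) : Prop extends HQ X where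
  p2 : IsPGroup 2 X
  eq : commutator X = center X
  ne : NE X
  odd : Odd (Nat.card A)
  fix : ∀ x : X, (∀ φ ∈ A, x⁻¹ * φ x ∈ center X) → x ∈ center X

theorem HQ.index_centralizer {X : Type*} [Group X] (h : HQ X) (w : X) :
    (centralizer {w} : Subgroup X).index = Nat.card (commHom' h.comm w).range := by
  have h1 : (commHom' h.comm w).ker = centralizer {w} := by
    ext g
    rw [mem_ker_commHom' h.comm, mem_centralizer_singleton_iff]
  rw [← h1, index_ker]

theorem HQ.index_centralizer_le_card {X : Type*} [Group X] [Finite X] (h : HQ X) (w : X) :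
    (centralizer {w} : Subgroup X).index ≤ Nat.card (commutator X) := by
  rw [h.index_centralizer]
  exact Nat.card_le_card_of_injective _ (commHom' h.comm w).range.subtype_injective

theorem HQ.index_centralizer_le_of_mem {X : Type*} [Group X] [Finite X] (h : HQ X) (w : X) (S : Subgroup X)
    (hS : ∀ g : X, ⁅g, w⁆ ∈ S) : (centralizer {w} : Subgroup X).index ≤ Nat.card S := by
  rw [h.index_centralizer]
  let f : (commHom' h.comm w).range → S := fun y => ⟨((y : commutator X) : X), by
    obtain ⟨g, hg⟩ := y.2
    rw [← hg]
    exact hS g⟩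
  apply Nat.card_le_card_of_injective f
  intro y z hyz
  have : (((y : commutator X) : X)) = ((z : commutator X) : X) := congrArg (fun t : S => (t : X)) hyz
  exact Subtype.ext (Subtype.ext this)

theorem ncard_pair_le {X : Type*} (a b : X) : ({a, b} : Set X).ncard ≤ 2 := by
  have h1 := Set.ncard_insert_le a ({b} : Set X)
  rw [Set.ncard_singleton] at h1
  exact h1

theorem exists_third {X : Type*} [Group X] (V : Subgroup X) (h4 : Nat.card V = 4) (s : X) :
    ∃ t ∈ V, t ≠ 1 ∧ t ≠ s := by
  by_contra hcon
  push Not at hcon
  have h1 : (V : Set X) ⊆ {1, s} := by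
    intro t ht
    by_cases h : t = 1
    · exact Or.inl h
    · exact Or.inr (hcon t ht h)
  have h2 := Set.ncard_le_ncard h1 (Set.toFinite _)
  have h3 : (V : Set X).ncard = 4 := h4
  have h4 := ncard_pair_le (1 : X) s
  omega

section Four

variable {X : Type*} [Group X] [Finite X] {A : Subgroup (MulAut X)} (h : HS X A) (h4 : Nat.card (center X) = 4)

include h h4

theorem HS.inv_mem {x : X} (hx : x ^ 2 = 1) : x ∈ center X := by
  apply mem_of_conj h.ne (center X) inferInstance h.exp h4 x hx
  · intro k hk
    exact mem_center_iff.mp hk x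
  · intro g
    have h1 : x⁻¹ * (g * x * g⁻¹) = ⁅x⁻¹, g⁆ := by rw [commutatorElement_def]; group
    rw [h1]
    exact h.comm _ _

theorem HS.mem_zpowers {s x : X} (hs : s ∈ center X) : x ∈ zpowers s ↔ x = 1 ∨ x = s := by
  constructor
  · rintro ⟨n, rfl⟩
    have h1 : s ^ (2 : ℤ) = 1 := by
      have := h.exp s hs
      exact_mod_cast this
    rcases Int.even_or_odd n with ⟨m, rfl⟩ | ⟨m, rfl⟩
    · left
      show s ^ (m + m) = 1
      rw [← two_mul, zpow_mul, h1, one_zpow]
    · right
      show s ^ (2 * m + 1) = s
      rw [zpow_add, zpow_mul, h1, one_zpow, one_mul, zpow_one]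
  · rintro (rfl | rfl)
    · exact one_mem _
    · exact Subgroup.mem_zpowers _

theorem HS.card_zpowers_le {s : X} (hs : s ∈ center X) : Nat.card (zpowers s) ≤ 2 := by
  have h1 : ((zpowers s : Subgroup X) : Set X) ⊆ {1, s} := by
    intro x hx
    exact (h.mem_zpowers h4 hs).mp hx
  have h2 := Set.ncard_le_ncard h1 (Set.toFinite _)
  exact h2.trans (ncard_pair_le _ _)

/-- the subgroup of elements with all commutators in `⟨s⟩` -/
theorem HS.exists_R {s : X} (hs : s ∈ center X) (hs1 : s ≠ 1) :
    ∃ R : Subgroup X, (∀ w : X, w ∈ R ↔ ∀ g : X, ⁅g, w⁆ ∈ zpowers s) ∧ R ≠ ⊤ ∧ ∃ k : ℕ, R.index = 2 ^ (2 * k) := by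
  have hS : zpowers s ≤ center X := by rwa [zpowers_le]
  have hSn : (zpowers s).Normal := by
    refine ⟨fun n hn g => ?_⟩
    rw [mem_center_iff.mp (hS hn) g, mul_assoc, mul_inv_cancel, mul_one]
    exact hn
  let π := QuotientGroup.mk' (zpowers s)
  have hπ : Function.Surjective π := QuotientGroup.mk'_surjective _
  have hπ1 : ∀ x : X, π x = 1 ↔ x ∈ zpowers s := fun x => by
    rw [QuotientGroup.mk'_apply, QuotientGroup.eq_one_iff]
  refine ⟨(center (X ⧸ zpowers s)).comap π, ?_, ?_, ?_⟩
  · intro w
    rw [mem_comap, mem_center_iff]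
    constructor
    · intro hw g
      rw [← hπ1, map_commutatorElement, commutatorElement_eq_one_iff_mul_comm]
      exact hw _
    · intro hw g
      obtain ⟨g, rfl⟩ := hπ g
      rw [← commutatorElement_eq_one_iff_mul_comm, ← map_commutatorElement, hπ1]
      exact hw g
  · intro htop
    have h1 : ∀ g w : X, ⁅g, w⁆ ∈ zpowers s := by
      intro g w
      have : w ∈ (center (X ⧸ zpowers s)).comap π := htop ▸ mem_top w
      rw [mem_comap, mem_center_iff] at this
      rw [← hπ1, map_commutatorElement, commutatorElement_eq_one_iff_mul_comm]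
      exact this _
    have h2 : commutator X ≤ zpowers s := by
      rw [commutator_def, commutator_le]
      intro g _ w _
      exact h1 g w
    rw [h.eq] at h2
    have h3 := Subgroup.card_le_of_le h2
    have h5 := h.card_zpowers_le h4 hs
    omega
  · have h1 : ((center (X ⧸ zpowers s)).comap π).index = (center (X ⧸ zpowers s)).index :=
      index_comap_of_surjective _ hπ
    rw [h1]
    have : Fact (Nat.Prime 2) := ⟨Nat.prime_two⟩
    have hcomm : ∀ a b : X ⧸ zpowers s, ⁅a, b⁆ ∈ center (X ⧸ zpowers s) := by
      intro a b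
      obtain ⟨a, rfl⟩ := hπ a
      obtain ⟨b, rfl⟩ := hπ b
      rw [← map_commutatorElement, mem_center_iff]
      intro g
      obtain ⟨g, rfl⟩ := hπ g
      rw [← map_mul, ← map_mul, mem_center_iff.mp (h.comm a b) g]
    have hdvd : Nat.card (commutator (X ⧸ zpowers s)) ∣ 2 := by
      obtain ⟨t, ht, ht1, hts⟩ := exists_third (center X) h4 s
      have hsub : ((commutator (X ⧸ zpowers s) : Subgroup _) : Set (X ⧸ zpowers s)) ⊆ {1, π t} := by
        intro y hy
        have h2 : commutator (X ⧸ zpowers s) = (commutator X).map π := by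
          rw [commutator_def, commutator_def, map_commutator, map_top_of_surjective π hπ]
        have hy' : y ∈ commutator (X ⧸ zpowers s) := hy
        rw [h2, h.eq] at hy'
        obtain ⟨z, hz, rfl⟩ := hy'
        have hsπ : π s = 1 := (hπ1 s).mpr (Subgroup.mem_zpowers s)
        rcases four_elems (center X) h4 h.exp hs ht hs1 ht1 hts.symm hz with h3 | h3 | h3 | h3
        · left; rw [h3, map_one]
        · left; rw [h3, hsπ]
        · right; rw [h3]; rfl
        · right; rw [h3, map_mul, hsπ, one_mul]; rfl
      have h3 := Set.ncard_le_ncard hsub (Set.toFinite _)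
      have h5 := ncard_pair_le (1 : X ⧸ zpowers s) (π t)
      have h6 : Nat.card (commutator (X ⧸ zpowers s)) ≤ 2 := h3.trans h5
      have h7 : 0 < Nat.card (commutator (X ⧸ zpowers s)) := Nat.card_pos
      interval_cases Nat.card (commutator (X ⧸ zpowers s)) <;> norm_num
    exact exists_index_center_eq (p := 2) _ (P := X ⧸ zpowers s) rfl hcomm hdvd

theorem HS.card_centralizer_le {w : X} (hw : w ∉ center X) : Nat.card (centralizer {w} : Subgroup X) ≤ 32 := by
  have hww : w * w ∈ center X := by rw [← pow_two]; exact h.sq w
  set K := adj' (center X) inferInstance w hww with hK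
  have hKc : Nat.card K ≤ 2 * Nat.card (center X) := card_adj' _ _ _ _
  have hp1 : w ^ 2 ≠ 1 := fun hh => hw (h.inv_mem h4 hh)
  obtain ⟨t, ht, ht1, htw⟩ := exists_third (center X) h4 (w ^ 2)
  have htN : t ∉ zpowers (w ^ 2) := by
    rw [h.mem_zpowers h4 (h.sq w)]
    rintro (h1 | h1)
    · exact ht1 h1
    · exact htw h1
  have key := h.toHQ.card_le K (centralizer {w}) (le_adj' _ _ _ _) (zpowers (w ^ 2)) t ht htN (by
    intro x hx hxK
    rw [mem_adj', not_or] at hxK
    have htt : t * t = 1 := h.zz ht
    rcases four_elems (center X) h4 h.exp (h.sq w) ht hp1 ht1 htw.symm (h.sq x) with h1 | h1 | h1 | h1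
    · exact absurd (h.inv_mem h4 h1) hxK.1
    · exfalso
      apply hxK.2
      apply h.inv_mem h4
      have hc : Commute w x := (mem_centralizer_singleton_iff.mp hx).symm
      rw [hc.mul_pow, h1, ← pow_two]
      exact h.exp _ (h.sq w)
    · rw [h1, htt]
      exact one_mem _
    · rw [h1, mul_assoc, htt, mul_one]
      exact Subgroup.mem_zpowers _)
  omega

/-- `|X| = 64`. -/
theorem HS.card_eq : Nat.card X = 64 := by
  have : Fact (Nat.Prime 2) := ⟨Nat.prime_two⟩
  obtain ⟨n, hn⟩ := IsPGroup.iff_card.mp h.p2
  have hci := (center X).card_mul_index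
  rw [h4, hn] at hci
  -- a non-central element
  have hZtop : center X ≠ ⊤ := by
    intro htop
    have h1 : commutator X = ⊥ := by
      rw [eq_bot_iff, commutator_def, commutator_le]
      intro g _ w _
      have hw : w ∈ center X := htop ▸ mem_top w
      rw [mem_bot, commutatorElement_eq_one_iff_mul_comm]
      exact mem_center_iff.mp hw g
    rw [h.eq] at h1
    rw [h1] at h4
    simp at h4
  obtain ⟨w, -, hw⟩ := SetLike.exists_of_lt (lt_top_iff_ne_top.mpr hZtop)
  obtain ⟨s, hs, hs1, -⟩ := exists_third (center X) h4 1
  have hcomm4 : Nat.card (commutator X) = 4 := by rw [h.eq, h4]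
  have hZR : ∀ (R : Subgroup X) (s : X), (∀ w : X, w ∈ R ↔ ∀ g : X, ⁅g, w⁆ ∈ zpowers s) → center X ≤ R := by
    intro R s hR z hz
    rw [hR]
    intro g
    rw [commutatorElement_eq_one_iff_mul_comm.mpr (mem_center_iff.mp hz g)]
    exact one_mem _
  have hn7 : n ≤ 7 := by
    have h1 := (centralizer {w} : Subgroup X).card_mul_index
    have h2 := h.card_centralizer_le h4 hw
    have h3 := h.toHQ.index_centralizer_le_card w
    rw [hcomm4] at h3
    by_contra hcon
    have h5 : 2 ^ 8 ≤ 2 ^ n := Nat.pow_le_pow_right (by norm_num) (by omega)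
    rw [← hn, ← h1] at h5
    have := Nat.mul_le_mul h2 h3
    omega
  obtain ⟨R, hR, hRtop, k, hk⟩ := h.exists_R h4 hs hs1
  have hk0 : k ≠ 0 := by
    rintro rfl
    rw [mul_zero, pow_zero, index_eq_one] at hk
    exact hRtop hk
  have hRidx : R.index ∣ (center X).index := index_dvd_of_le (hZR R s hR)
  have hk4 : 4 ≤ R.index := by
    rw [hk, pow_mul]
    calc 4 = (2 ^ 2) ^ 1 := by norm_num
      _ ≤ (2 ^ 2) ^ k := Nat.pow_le_pow_right (by norm_num) (by omega)
  have hZpos : 0 < (center X).index := Nat.pos_of_ne_zero (index_ne_zero_of_finite)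
  have hle := Nat.le_of_dvd hZpos hRidx
  have hn4 : 4 ≤ n := by
    by_contra hcon
    have h5 : 2 ^ n ≤ 2 ^ 3 := Nat.pow_le_pow_right (by norm_num) (by omega)
    omega
  -- `R` of the same index as the centre equals the centre
  have hReq : ∀ (R : Subgroup X) (s : X), (∀ w : X, w ∈ R ↔ ∀ g : X, ⁅g, w⁆ ∈ zpowers s) →
      R.index = (center X).index → R ≤ center X := by
    intro R s hR hi
    have h1 := R.card_mul_index
    have h2 := (center X).card_mul_index
    rw [← hi] at h2
    have h3 : Nat.card R = Nat.card (center X) := by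
      have hpos : 0 < R.index := by rw [hi]; exact hZpos
      exact Nat.eq_of_mul_eq_mul_right hpos (h1.trans h2.symm)
    exact (Subgroup.eq_of_le_of_card_ge (hZR R s hR) h3.le).ge
  interval_cases n
  · -- n = 4
    exfalso
    have hZi : (center X).index = 4 := by omega
    -- index of the centralizer of `w`
    have hww : w * w ∈ center X := by rw [← pow_two]; exact h.sq w
    have hlt : center X < centralizer {w} := by
      rw [SetLike.lt_iff_le_and_exists]
      refine ⟨center_le_centralizer _, w, ?_, hw⟩
      rw [mem_centralizer_singleton_iff]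
    have h1 := (centralizer {w} : Subgroup X).card_mul_index
    have h2 : (centralizer {w} : Subgroup X).index ∣ (center X).index := index_dvd_of_le hlt.le
    rw [hZi] at h2
    have h3 : (centralizer {w} : Subgroup X).index ≠ 4 := by
      intro h5
      rw [h5, hn] at h1
      have h6 : Nat.card (centralizer {w} : Subgroup X) = Nat.card (center X) := by omega
      exact hlt.ne (Subgroup.eq_of_le_of_card_ge hlt.le h6.le)
    have h5 : (centralizer {w} : Subgroup X).index ≤ 2 := by
      have h6 := Nat.le_of_dvd (by norm_num) h2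
      interval_cases hh : (centralizer {w} : Subgroup X).index <;> omega
    have h6 : (centralizer {w} : Subgroup X).index ≠ 1 := by
      intro h7
      rw [index_eq_one] at h7
      apply hw
      rw [mem_center_iff]
      intro g
      have : g ∈ (centralizer {w} : Subgroup X) := h7 ▸ mem_top g
      exact mem_centralizer_singleton_iff.mp this
    have h7 : (centralizer {w} : Subgroup X).index = 2 := by
      have : (centralizer {w} : Subgroup X).index ≠ 0 := index_ne_zero_of_finite
      omega
    obtain ⟨g₀, -, hg₀⟩ := SetLike.exists_of_lt (lt_top_iff_ne_top.mpr (fun htop => h6 (index_eq_one.mpr htop)))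
    have hs' : ⁅g₀, w⁆ ∈ center X := h.comm g₀ w
    have hs'1 : ⁅g₀, w⁆ ≠ 1 := by
      intro h8
      apply hg₀
      rw [mem_centralizer_singleton_iff]
      exact commutatorElement_eq_one_iff_mul_comm.mp h8
    obtain ⟨R', hR', hR'top, k', hk'⟩ := h.exists_R h4 hs' hs'1
    have hk'4 : 4 ≤ R'.index := by
      have hk'0 : k' ≠ 0 := by
        rintro rfl
        rw [mul_zero, pow_zero, index_eq_one] at hk'
        exact hR'top hk'
      rw [hk', pow_mul]
      calc 4 = (2 ^ 2) ^ 1 := by norm_num
        _ ≤ (2 ^ 2) ^ k' := Nat.pow_le_pow_right (by norm_num) (by omega)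
    have hR'le : R'.index ≤ 4 := by
      have := Nat.le_of_dvd hZpos (index_dvd_of_le (hZR R' _ hR'))
      omega
    apply hw
    apply hReq R' _ hR' (by omega)
    rw [hR']
    intro g
    rw [h.mem_zpowers h4 hs']
    by_cases hg : g ∈ (centralizer {w} : Subgroup X)
    · left
      rw [commutatorElement_eq_one_iff_mul_comm]
      exact mem_centralizer_singleton_iff.mp hg
    · right
      have h8 : g * g₀ ∈ (centralizer {w} : Subgroup X) := by
        rw [mul_mem_iff_of_index_two h7]
        exact iff_of_false hg hg₀
      have h9 : ⁅g * g₀, w⁆ = 1 := by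
        rw [commutatorElement_eq_one_iff_mul_comm]
        exact mem_centralizer_singleton_iff.mp h8
      rw [comm_mul_left h.comm] at h9
      exact mul_right_cancel (h9.trans (h.zz hs').symm)
  · -- n = 5
    exfalso
    have hZi : (center X).index = 8 := by omega
    by_cases hA : ∀ φ ∈ A, ∀ z ∈ center X, φ z = z
    · -- `A` is trivial on the centre
      have hRi : R.index = 4 := by
        have h1 := Nat.le_of_dvd hZpos hRidx
        have hk1 : k = 1 := by
          by_contra hk1
          have h2 : 2 ^ (2 * 2) ≤ 2 ^ (2 * k) := Nat.pow_le_pow_right (by norm_num) (by omega)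
          omega
        rw [hk, hk1]
        norm_num
      have hRc : Nat.card R = 8 := by
        have := R.card_mul_index
        rw [hRi, hn] at this
        omega
      have hrel : ((center X).subgroupOf R).index = 2 := by
        have h1 : (center X).relIndex R * R.index = (center X).index := relIndex_mul_index (hZR R s hR)
        rw [hRi, hZi] at h1
        have : (center X).relIndex R = 2 := by omega
        exact this
      have hRlt : center X < R := by
        refine lt_of_le_of_ne (hZR R s hR) ?_
        intro h5
        rw [h5] at h4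
        omega
      obtain ⟨v, hvR, hv⟩ := SetLike.exists_of_lt hRlt
      apply hv
      apply h.fix
      intro φ hφ
      have hφv : φ v ∈ R := by
        rw [hR]
        intro g
        have h1 := (hR v).mp hvR (φ.symm g)
        rw [h.mem_zpowers h4 hs] at h1
        have h2 : ⁅g, φ v⁆ = φ ⁅φ.symm g, v⁆ := by
          rw [map_commutatorElement, MulEquiv.apply_symm_apply]
        rw [h2, h.mem_zpowers h4 hs]
        rcases h1 with h1 | h1
        · left; rw [h1, map_one]
        · right; rw [h1]; exact hA φ hφ s hs
      have hφv' : φ v ∉ center X := by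
        intro h5
        apply hv
        have h6 : (φ⁻¹ : MulAut X) ∈ A := A.inv_mem hφ
        have h7 := hA _ h6 _ h5
        have h8 : (φ⁻¹ : MulAut X) (φ v) = v := by
          rw [← MulAut.mul_apply, inv_mul_cancel, MulAut.one_apply]
        rw [h8] at h7
        rw [h7]
        exact h5
      have h5 := (mul_mem_iff_of_index_two hrel (a := (⟨v⁻¹, R.inv_mem hvR⟩ : R)) (b := ⟨φ v, hφv⟩)).mpr (by
        rw [mem_subgroupOf, mem_subgroupOf]
        exact iff_of_false (fun h6 => hv ((inv_mem_iff).mp h6)) hφv')
      rw [mem_subgroupOf] at h5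
      exact h5
    · -- `A` is transitive on the involutions of the centre
      push Not at hA
      obtain ⟨φ, hφ, z, hz, hφz⟩ := hA
      have hφZ : ∀ z ∈ center X, φ z ∈ center X := by
        intro z hz
        rw [mem_center_iff]
        intro g
        have h1 := mem_center_iff.mp hz (φ.symm g)
        have h2 := congrArg φ h1
        rwa [map_mul, map_mul, MulEquiv.apply_symm_apply] at h2
      have hφo : φ ^ Nat.card A = 1 := by
        have h1 : (⟨φ, hφ⟩ : A) ^ Nat.card A = 1 := pow_card_eq_one'
        exact congrArg (fun t : A => (t : MulAut X)) h1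
      have hfpf := fpf_four (center X) h4 h.exp φ hφZ _ h.odd hφo ⟨z, hz, hφz⟩
      have h1 : φ s ≠ 1 := fun hh => hs1 ((map_eq_one_iff φ φ.injective).mp hh)
      have h2 : φ (φ s) ≠ 1 := fun hh => h1 ((map_eq_one_iff φ φ.injective).mp hh)
      have h3 : s ≠ φ s := fun hh => hs1 (hfpf s hs hh.symm)
      have h5 : φ s ≠ φ (φ s) := fun hh => h3 (φ.injective hh)
      have h6 : s ≠ φ (φ s) := by
        intro hh
        have h7 := norm_four (center X) h4 h.exp φ hφZ hfpf s hs
        rw [← hh] at h7
        have h8 : s * φ s = s := by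
          have h9 := h.zz hs
          exact mul_right_cancel (h7.trans h9.symm)
        exact h1 (by simpa using h8)
      -- fibres of the squaring map
      have hF : ∀ c : X, {x : X | x ^ 2 = c}.ncard = {x : X | x ^ 2 = φ c}.ncard := by
        intro c
        have h7 : φ '' {x : X | x ^ 2 = c} = {x : X | x ^ 2 = φ c} := by
          ext x
          constructor
          · rintro ⟨y, hy, rfl⟩
            show (φ y) ^ 2 = φ c
            rw [← map_pow]
            exact congrArg φ hy
          · intro hx
            refine ⟨φ.symm x, ?_, by simp⟩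
            show (φ.symm x) ^ 2 = c
            rw [← map_pow, show x ^ 2 = φ c from hx, MulEquiv.symm_apply_apply]
        rw [← h7, Set.ncard_image_of_injective _ φ.injective]
      have hunion : ((center X : Set X))ᶜ = {x : X | x ^ 2 = s} ∪ ({x : X | x ^ 2 = φ s} ∪ {x : X | x ^ 2 = φ (φ s)}) := by
        ext x
        constructor
        · intro hx
          rcases orbit_four (center X) h4 h.exp φ hφZ hfpf hs hs1 (h.sq x) with h7 | h7 | h7 | h7
          · exact absurd (h.inv_mem h4 h7) hx
          · exact Or.inl h7
          · exact Or.inr (Or.inl h7)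
          · exact Or.inr (Or.inr h7)
        · intro hx hxZ
          have h7 := h.exp x hxZ
          rcases hx with hx | hx | hx
          · exact hs1 ((show x ^ 2 = s from hx).symm.trans h7)
          · exact h1 ((show x ^ 2 = φ s from hx).symm.trans h7)
          · exact h2 ((show x ^ 2 = φ (φ s) from hx).symm.trans h7)
      have hcompl := Set.ncard_add_ncard_compl (center X : Set X)
      have hc1 : (center X : Set X).ncard = 4 := h4
      rw [hc1, hn, hunion, Set.ncard_union_eq, Set.ncard_union_eq, ← hF, ← hF, ← hF] at hcompl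
      · omega
      · rw [Set.disjoint_left]
        intro x hx hx'
        exact h5 ((show x ^ 2 = φ s from hx).symm.trans hx')
      · rw [Set.disjoint_left]
        rintro x hx (hx' | hx')
        · exact h3 ((show x ^ 2 = s from hx).symm.trans hx')
        · exact h6 ((show x ^ 2 = s from hx).symm.trans hx')
  · -- n = 6
    rw [hn]; norm_num
  · -- n = 7
    exfalso
    have hZi : (center X).index = 32 := by omega
    have hcen : R ≤ center X := by
      intro v hv
      by_contra hvZ
      have h1 := (centralizer {v} : Subgroup X).card_mul_index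
      have h2 := h.card_centralizer_le h4 hvZ
      have h3 := h.toHQ.index_centralizer_le_of_mem v (zpowers s) ((hR v).mp hv)
      have h5 := h.card_zpowers_le h4 hs
      have h6 := Nat.mul_le_mul h2 (h3.trans h5)
      rw [h1, hn] at h6
      norm_num at h6
    have hRZ : R = center X := le_antisymm hcen (hZR R s hR)
    rw [hRZ, hZi] at hk
    have h1 : (32 : ℕ) = 2 ^ 5 := by norm_num
    rw [h1] at hk
    have := Nat.pow_right_injective le_rfl hk
    omega

end Four

end Cfsg.Agent.H19.Scn3
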