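import Mathlib
import Cfsg.Agent.H19.Scn3.Homo
import Cfsg.Agent.H19.Scn3.CountTwo
import Cfsg.Agent.S0093
import Cfsg.Agent.S0121
import Cfsg.Agent.Transfer.TausskyTwoGroup
set_option linter.all false

/-!
# 2-groups `X` with `SCN₃(X) = ∅` and `[X, A] = X` for a group `A` of automorphisms of odd order
-/

set_option autoImplicit false

namespace Cfsg.Agent.H19.Scn3

open Subgroup
open scoped commutatorElement
open Cfsg.Agent.Transfer.CentralComm Cfsg.Agent.Transfer.Extraspecial

theorem norm3 {X : Type*} [Group X] (A : Subgroup (MulAut X)) (a : MulAut X) (hcube : ∀ x, a (a (a x)) = x)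
    (hA3 : ∀ φ ∈ A, φ = 1 ∨ φ = a ∨ φ = a * a)
    (hXA : Subgroup.closure {g : X | ∃ φ ∈ A, ∃ x : X, g = x⁻¹ * φ x} = ⊤)
    {M : Type*} [CommGroup M] (f : X →* M) (x : X) : f x * f (a x) * f (a (a x)) = 1 := by
  let T : X →* M :=
    { toFun := fun x => f x * f (a x) * f (a (a x))
      map_one' := by simp
      map_mul' := fun x y => by
        simp only [map_mul]
        rw [mul_mul_mul_comm (f x), mul_mul_mul_comm (f x * f (a x))] }
  have hT : ∀ x, T (a x) = T x := by
    intro x
    show f (a x) * f (a (a x)) * f (a (a (a x))) = f x * f (a x) * f (a (a x))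
    rw [hcube, mul_comm _ (f x), ← mul_assoc]
  have hker : (⊤ : Subgroup X) ≤ T.ker := by
    rw [← hXA, Subgroup.closure_le]
    rintro g ⟨φ, hφ, x, rfl⟩
    show x⁻¹ * φ x ∈ T.ker
    rw [MonoidHom.mem_ker, map_mul, map_inv]
    rcases hA3 φ hφ with rfl | rfl | rfl
    · rw [MulAut.one_apply, inv_mul_cancel]
    · rw [hT, inv_mul_cancel]
    · rw [MulAut.mul_apply, hT, hT, inv_mul_cancel]
  exact hker (Subgroup.mem_top x)

theorem norm3_mem {X : Type*} [Group X] (A : Subgroup (MulAut X)) (a : MulAut X) (hcube : ∀ x, a (a (a x)) = x)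
    (hA3 : ∀ φ ∈ A, φ = 1 ∨ φ = a ∨ φ = a * a)
    (hXA : Subgroup.closure {g : X | ∃ φ ∈ A, ∃ x : X, g = x⁻¹ * φ x} = ⊤)
    (N : Subgroup X) (hNn : N.Normal) (hN : commutator X ≤ N) (x : X) : x * a x * a (a x) ∈ N := by
  have hcomm : ∀ a b : X ⧸ N, a * b = b * a := by
    intro a b
    obtain ⟨a, rfl⟩ := QuotientGroup.mk_surjective a
    obtain ⟨b, rfl⟩ := QuotientGroup.mk_surjective b
    rw [← QuotientGroup.mk_mul, ← QuotientGroup.mk_mul, QuotientGroup.eq]
    have h1 : (a * b)⁻¹ * (b * a) = ⁅b⁻¹, a⁻¹⁆ := by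
      rw [commutatorElement_def]; group
    rw [h1]
    exact hN (commutator_mem_commutator (mem_top _) (mem_top _))
  let _ : CommGroup (X ⧸ N) := { (inferInstance : Group (X ⧸ N)) with mul_comm := hcomm }
  have h1 := norm3 A a hcube hA3 hXA (QuotientGroup.mk' N) x
  rw [← map_mul, ← map_mul] at h1
  exact (QuotientGroup.eq_one_iff _).mp h1

/-- if squares lie in `Z ≤ Z(X)` then commutators lie in `Z` -/
theorem comm_mem_of_sq {X : Type*} [Group X] (Z : Subgroup X) (hZ : Z ≤ center X) (hsq : ∀ x : X, x ^ 2 ∈ Z) (x y : X) :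
    ⁅x, y⁆ ∈ Z := by
  have h1 : ⁅x, y⁆ = (x * y) ^ 2 * (x ^ 2)⁻¹ * (y ^ 2)⁻¹ := by
    have hx : ∀ g : X, g * (x ^ 2)⁻¹ = (x ^ 2)⁻¹ * g := fun g => mem_center_iff.mp (hZ (Z.inv_mem (hsq x))) g
    calc ⁅x, y⁆ = x * y * x * (x ^ 2)⁻¹ * y⁻¹ := by rw [commutatorElement_def]; group
      _ = x * y * x * (y * y⁻¹) * (x ^ 2)⁻¹ * y⁻¹ := by group
      _ = x * y * x * y * (y⁻¹ * (x ^ 2)⁻¹) * y⁻¹ := by group
      _ = x * y * x * y * ((x ^ 2)⁻¹ * y⁻¹) * y⁻¹ := by rw [hx]
      _ = (x * y) ^ 2 * (x ^ 2)⁻¹ * (y ^ 2)⁻¹ := by rw [pow_two (x * y)]; group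
  rw [h1]
  exact Z.mul_mem (Z.mul_mem (hsq _) (Z.inv_mem (hsq _))) (Z.inv_mem (hsq _))

theorem center_card {X : Type*} [Group X] [Finite X] {A : Subgroup (MulAut X)} (h : HS X A)
    (hna : ¬ IsMulCommutative X) : Nat.card (center X) = 2 ∨ Nat.card (center X) = 4 := by
  have h1 := h.ne (center X) inferInstance h.exp
  obtain ⟨n, hn⟩ := IsPGroup.iff_card.mp (h.p2.to_subgroup (center X))
  have h2 : n ≠ 0 := by
    rintro rfl
    rw [pow_zero, card_eq_one] at hn
    have h3 : commutator X = ⊥ := h.eq.trans hn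
    apply hna
    refine ⟨⟨fun x y => ?_⟩⟩
    have h4 : ⁅x, y⁆ ∈ commutator X := commutator_mem_commutator (mem_top x) (mem_top y)
    rw [h3, mem_bot, commutatorElement_eq_one_iff_mul_comm] at h4
    exact h4
  have h3 : n ≤ 2 := by
    by_contra hcon
    have h4 : 2 ^ 3 ≤ 2 ^ n := Nat.pow_le_pow_right (by norm_num) (by omega)
    omega
  interval_cases n
  · exact absurd rfl h2
  · left; rw [hn]; norm_num
  · right; rw [hn]; norm_num

section Main

variable {X : Type*} [Group X] [Finite X] (hX : IsPGroup 2 X) (hna : ¬ IsMulCommutative X) (hne : NE X)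
  (A : Subgroup (MulAut X)) (hA : Odd (Nat.card A))
  (hXA : Subgroup.closure {g : X | ∃ φ ∈ A, ∃ x : X, g = x⁻¹ * φ x} = ⊤)

include hX hne hA hXA

/-- the structure `HS` from its essential part -/
theorem mkHS (hsq : ∀ x : X, x ^ 2 ∈ center X) (hexp : ∀ z ∈ center X, z ^ 2 = 1)
    (hle : center X ≤ commutator X) : HS X A := by
  have hcomm : ∀ x y : X, ⁅x, y⁆ ∈ center X := comm_mem_of_sq (center X) le_rfl hsq
  have heq : commutator X = center X := by
    refine le_antisymm ?_ hle
    rw [commutator_def, commutator_le]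
    intro x _ y _
    exact hcomm x y
  exact ⟨⟨hcomm, hsq, hexp⟩, hX, heq, hne, hA, fun x hx => mem_of_fixed hX A hA hXA (center X) heq.le x hx⟩

include hna in
/-- the case where the centre `B` of the critical subgroup is central in `X` -/
theorem caseCentral (W : Subgroup X) (hWsq : ∀ w ∈ W, w ^ 2 ∈ centralizer (W : Set X))
    (hWc : ∀ w ∈ W, ∀ g : X, ⁅w, g⁆ ∈ centralizer (W : Set X))
    (hB : centralizer (W : Set X) ≤ center X)
    (hAZ : (∀ φ ∈ A, ∀ b ∈ centralizer (W : Set X), φ b = b) ∨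
      ((∀ b ∈ centralizer (W : Set X), b ^ 2 = 1) ∧ ∀ D : Subgroup X, D ≠ ⊥ → D ≤ centralizer (W : Set X) →
        (∀ φ ∈ A, ∀ d ∈ D, φ d ∈ D) → D = centralizer (W : Set X))) : HS X A := by
  have hBc : centralizer (W : Set X) = center X := le_antisymm hB (center_le_centralizer _)
  have hsq : ∀ x : X, x ^ 2 ∈ center X := by
    intro x
    rw [← hBc, mem_centralizer_iff]
    intro w hw
    have hwx : ∀ w' ∈ W, ∀ g : X, ⁅w', g⁆ ∈ center X := fun w' hw' g => hB (hWc w' hw' g)
    have hcen := mem_center_iff.mp (hwx w hw x)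
    -- [w, x]² = [w, x²] = [w², x] = 1
    have h1 : ⁅w ^ 2, x⁆ = 1 := by
      rw [commutatorElement_eq_one_iff_mul_comm]
      exact (mem_center_iff.mp (hB (hWsq w hw)) x).symm
    have h2 : ⁅w ^ 2, x⁆ = ⁅w, x⁆ * ⁅w, x⁆ := by
      have : ⁅w ^ 2, x⁆ = w * ⁅w, x⁆ * w⁻¹ * ⁅w, x⁆ := by
        rw [pow_two]; simp only [commutatorElement_def]; group
      rw [this, hcen w, mul_assoc ⁅w, x⁆ w, mul_inv_cancel, mul_one]
    have h3 : ⁅w, x ^ 2⁆ = ⁅w, x⁆ * ⁅w, x⁆ := by
      have : ⁅w, x ^ 2⁆ = ⁅w, x⁆ * (x * ⁅w, x⁆ * x⁻¹) := by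
        rw [pow_two]; simp only [commutatorElement_def]; group
      rw [this, hcen x, mul_assoc ⁅w, x⁆ x, mul_inv_cancel, mul_one]
    rw [← commutatorElement_eq_one_iff_mul_comm, h3, ← h2, h1]
  have hcomm : ∀ x y : X, ⁅x, y⁆ ∈ center X := comm_mem_of_sq (center X) le_rfl hsq
  have hcomm2 : ∀ x y : X, ⁅x, y⁆ ^ 2 = 1 := by
    intro x y
    rw [← comm_pow_left hcomm, commutatorElement_eq_one_iff_mul_comm]
    exact (mem_center_iff.mp (hsq x) y).symm
  have hcs : ∀ x ∈ center X, ∀ y ∈ center X, x * y = y * x := fun x _ y hy => mem_center_iff.mp hy x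
  have hle2 : commutator X ≤ om (center X) hcs 2 := by
    rw [commutator_def, commutator_le]
    intro x _ y _
    exact ⟨hcomm x y, hcomm2 x y⟩
  have hle : center X ≤ commutator X := by
    rcases hAZ with hAZ | ⟨-, hAZ⟩
    · intro z hz
      apply mem_of_fixed hX A hA hXA (commutator X) le_rfl
      intro φ hφ
      rw [hAZ φ hφ z (by rw [hBc]; exact hz), inv_mul_cancel]
      exact one_mem _
    · have h1 : commutator X ≠ ⊥ := by
        intro hbot
        apply hna
        refine ⟨⟨fun x y => ?_⟩⟩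
        have h4 : ⁅x, y⁆ ∈ commutator X := commutator_mem_commutator (mem_top x) (mem_top y)
        rw [hbot, mem_bot, commutatorElement_eq_one_iff_mul_comm] at h4
        exact h4
      have h2 := hAZ (commutator X) h1 (by rw [hBc]; exact fun x hx => (hle2 hx).1) (by
        intro φ _ d hd
        have h3 : (commutator X).map φ.toMonoidHom = commutator X := by
          rw [commutator_def, map_commutator, map_top_of_surjective _ φ.surjective]
        rw [← h3]
        exact mem_map_of_mem _ hd)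
      rw [h2, hBc]
  exact mkHS hX hne A hA hXA hsq (fun z hz => (hle2 (hle hz)).2) hle

include hna in
/-- **Main theorem** in terms of a critical subgroup. -/
theorem exists_HS (W : Subgroup X) (hWch : W.Characteristic)
    (h1 : (frattini W).map W.subtype ≤ centralizer (W : Set X))
    (h2 : ⁅W, (⊤ : Subgroup X)⁆ ≤ W ⊓ centralizer (W : Set X)) (h3 : centralizer (W : Set X) ≤ W) : HS X A := by
  have hp : Fact (Nat.Prime 2) := ⟨Nat.prime_two⟩
  have hWsq : ∀ w ∈ W, w ^ 2 ∈ centralizer (W : Set X) := by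
    intro w hw
    apply h1
    refine ⟨(⟨w, hw⟩ : W) ^ 2, ?_, rfl⟩
    exact Cfsg.Agent.Lib.FrattiniBasic.pow_mem_frattini (hX.to_subgroup W) _
  have hWc : ∀ w ∈ W, ∀ g : X, ⁅w, g⁆ ∈ centralizer (W : Set X) := fun w hw g =>
    (h2 (commutator_mem_commutator hw (mem_top g))).2
  have hWinv : ∀ φ : MulAut X, ∀ w ∈ W, φ w ∈ W := by
    intro φ w hw
    have := hWch.fixed φ
    rw [← this] at hw
    exact hw
  set B := centralizer (W : Set X) with hBdef
  have hBinv : ∀ φ : MulAut X, ∀ b ∈ B, φ b ∈ B := by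
    intro φ b hb
    rw [hBdef, mem_centralizer_iff]
    intro w hw
    have h4 := mem_centralizer_iff.mp hb (φ.symm w) (hWinv φ.symm w hw)
    have h5 := congrArg φ h4
    rwa [map_mul, map_mul, MulEquiv.apply_symm_apply] at h5
  have hBcomm : ∀ x ∈ B, ∀ y ∈ B, x * y = y * x := fun x hx y hy =>
    mem_centralizer_iff.mp hy x (h3 hx)
  have hWn : W.Normal := inferInstance
  have hBn : B.Normal := by rw [hBdef]; infer_instance
  set Z := om B hBcomm 2 with hZdef
  have hZiff : ∀ b, b ∈ Z ↔ b ∈ B ∧ b ^ 2 = 1 := fun b => mem_om B hBcomm 2 b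
  have hZinv : ∀ φ : MulAut X, ∀ z ∈ Z, φ z ∈ Z := by
    intro φ z hz
    exact ⟨hBinv φ z hz.1, by rw [← map_pow, hz.2, map_one]⟩
  have hZn : Z.Normal := by
    refine ⟨fun z hz g => ⟨hBn.conj_mem z hz.1 g, ?_⟩⟩
    rw [conj_pow, hz.2, mul_one, mul_inv_cancel]
  have hZ2 : ∀ z ∈ Z, z ^ 2 = 1 := fun z hz => hz.2
  have hZle := hne Z hZn hZ2
  have htwo : ∀ x : X, ∃ k : ℕ, x ^ 2 ^ k = 1 := fun x => hX x
  have hBtriv : ∀ ψ ∈ A, (∀ z ∈ Z, ψ z = z) → ∀ b ∈ B, ψ b = b := by
    intro ψ hψ hfix b hb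
    obtain ⟨k, hk⟩ := htwo b
    have hψo : ψ ^ Nat.card A = 1 := by
      have h4 : (⟨ψ, hψ⟩ : A) ^ Nat.card A = 1 := pow_card_eq_one'
      exact congrArg (fun t : A => (t : MulAut X)) h4
    exact fixed_of_fixed_involutions B hBcomm ψ (hBinv ψ) _ hA hψo (fun b hb hb2 => hfix b ⟨hb, hb2⟩) k b hb hk
  by_cases hAtriv : ∀ φ ∈ A, ∀ z ∈ Z, φ z = z
  · -- Case (a)
    have hAB : ∀ φ ∈ A, ∀ b ∈ B, φ b = b := fun φ hφ => hBtriv φ hφ (hAtriv φ hφ)
    have hBcen : B ≤ center X := by
      intro b hb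
      have h4 : (⊤ : Subgroup X) ≤ centralizer (B : Set X) := by
        rw [← hXA, closure_le]
        rintro g ⟨φ, hφ, x, rfl⟩
        show x⁻¹ * φ x ∈ centralizer (B : Set X)
        rw [mem_centralizer_iff]
        intro c hc
        have h5 := hAB φ hφ _ (hBn.conj_mem c hc x)
        rw [map_mul, map_mul, map_inv, hAB φ hφ c hc] at h5
        -- φ x * c * (φ x)⁻¹ = x * c * x⁻¹
        have h6 : c = x⁻¹ * (φ x * c * (φ x)⁻¹) * x := by rw [h5]; group
        calc c * (x⁻¹ * φ x) = x⁻¹ * (φ x * c * (φ x)⁻¹) * x * (x⁻¹ * φ x) := by rw [← h6]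
          _ = x⁻¹ * φ x * c := by group
      rw [mem_center_iff]
      intro g
      exact (mem_centralizer_iff.mp (h4 (mem_top g)) b hb).symm
    exact caseCentral hX hna hne A hA hXA W hWsq hWc hBcen (Or.inl hAB)
  · -- Case (b)
    push Not at hAtriv
    obtain ⟨a, haA, z₀, hz₀, haz₀⟩ := hAtriv
    have hao : a ^ Nat.card A = 1 := by
      have h4 : (⟨a, haA⟩ : A) ^ Nat.card A = 1 := pow_card_eq_one'
      exact congrArg (fun t : A => (t : MulAut X)) h4
    have hz₀1 : z₀ ≠ 1 := by
      rintro rfl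
      exact haz₀ (map_one a)
    have hZcard : Nat.card Z = 4 := by
      obtain ⟨n, hn⟩ := IsPGroup.iff_card.mp (hX.to_subgroup Z)
      have hn2 : 2 ≤ n := by
        by_contra hcon
        have h4 : 2 ^ n ≤ 2 ^ 1 := Nat.pow_le_pow_right (by norm_num) (by omega)
        have h5 : ({1, z₀, a z₀} : Set X) ⊆ (Z : Set X) := by
          rintro y (rfl | rfl | rfl)
          · exact one_mem _
          · exact hz₀
          · exact hZinv a z₀ hz₀
        have h6 := Set.ncard_le_ncard h5 (Set.toFinite _)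
        have h7 : ({1, z₀, a z₀} : Set X).ncard = 3 := by
          rw [Set.ncard_insert_of_notMem (by
            rintro (h8 | h8)
            · exact hz₀1 h8.symm
            · exact hz₀1 ((map_eq_one_iff a a.injective).mp (Eq.symm h8))), Set.ncard_pair (fun h8 => haz₀ h8.symm)]
        have h8 : (Z : Set X).ncard = Nat.card Z := rfl
        omega
      have h4 : 2 ^ 2 ≤ 2 ^ n := Nat.pow_le_pow_right (by norm_num) hn2
      omega
    have hfpfZ : ∀ z ∈ Z, a z = z → z = 1 := fpf_four Z hZcard hZ2 a (hZinv a) _ hA hao ⟨z₀, hz₀, haz₀⟩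
    have horb : ∀ z ∈ Z, z ≠ 1 → ∀ t ∈ Z, t = 1 ∨ t = z ∨ t = a z ∨ t = a (a z) := fun z hz hz1 t ht =>
      orbit_four Z hZcard hZ2 a (hZinv a) hfpfZ hz hz1 ht
    -- a subgroup of `Z` invariant under `a` and nontrivial is `Z`
    have hirr : ∀ D : Subgroup X, (∃ d ∈ D, d ∈ Z ∧ d ≠ 1) → (∀ d ∈ D, a d ∈ D) → Z ≤ D := by
      rintro D ⟨d, hdD, hdZ, hd1⟩ hDa t ht
      rcases horb d hdZ hd1 t ht with h4 | h4 | h4 | h4
      · rw [h4]; exact one_mem _
      · rw [h4]; exact hdD
      · rw [h4]; exact hDa d hdD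
      · rw [h4]; exact hDa _ (hDa d hdD)
    have hZcen : Z ≤ center X := by
      apply hirr
      · have hZbot : Z ≠ ⊥ := by
          intro h4
          rw [h4] at hZcard
          simp at hZcard
        obtain ⟨d, hd, hdc, hd1⟩ :=
          Cfsg.Agent.Transfer.TausskyTwoGroup.exists_ne_one_mem_inf_center hX Z hZbot
        exact ⟨d, hdc, hd, hd1⟩
      · intro d hd
        rw [mem_center_iff]
        intro g
        have h4 := mem_center_iff.mp hd (a.symm g)
        have h5 := congrArg a h4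
        rwa [map_mul, map_mul, MulEquiv.apply_symm_apply] at h5
    by_cases hBexp : ∀ b ∈ B, b ^ 2 = 1
    · -- Case (b1)
      have hBZ : ∀ b ∈ B, b ∈ Z := fun b hb => ⟨hb, hBexp b hb⟩
      apply caseCentral hX hna hne A hA hXA W hWsq hWc (fun b hb => hZcen (hBZ b hb))
      right
      refine ⟨hBexp, ?_⟩
      intro D hD hDB hDA
      apply le_antisymm hDB
      intro b hb
      obtain ⟨d, hd, hd1⟩ := D.bot_or_exists_ne_one.resolve_left hD
      exact hirr D ⟨d, hd, hBZ d (hDB hd), hd1⟩ (hDA a haA) (hBZ b hb)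
    · -- Case (b2)
      push Not at hBexp
      obtain ⟨b₀, hb₀, hb₀2⟩ := hBexp
      have hzz : ∀ z ∈ Z, z * z = 1 := fun z hz => by rw [← pow_two]; exact hZ2 z hz
      have hcube3 : a * a * a ∈ A := A.mul_mem (A.mul_mem haA haA) haA
      have hcubeZ : ∀ z ∈ Z, a (a (a z)) = z := by
        intro z hz
        have h4 := norm_four Z hZcard hZ2 a (hZinv a) hfpfZ z hz
        have h5 := norm_four Z hZcard hZ2 a (hZinv a) hfpfZ (a z) (hZinv a z hz)
        have hB1 := hBcomm z hz.1 (a z * a (a z)) (B.mul_mem (hBinv a z hz.1) (hBinv a _ (hBinv a z hz.1)))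
        rw [mul_assoc, hB1] at h4
        exact mul_left_cancel (h5.trans h4.symm)
      have hcubeB : ∀ b ∈ B, a (a (a b)) = b := by
        intro b hb
        exact hBtriv (a * a * a) hcube3 (fun z hz => hcubeZ z hz) b hb
      have hHB : HB a B Z := ⟨hBcomm, hBinv a, hZiff, hZcard, hfpfZ, hcubeB, htwo⟩
      have hBbot : B ≠ ⊥ := by
        intro h4
        rw [h4, mem_bot] at hb₀
        exact hb₀2 (by rw [hb₀, one_pow])
      obtain ⟨m, hmZ, -, hmsq⟩ := hHB.exists_exp hBbot
      -- elements of `Z` are squares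
      have hroot : ∀ z ∈ Z, ∃ r ∈ B, r ^ 2 = z := by
        intro z hz
        have := hHB.exists_root 1 hb₀ (by simpa using hb₀2) hz
        simpa using this
      have hPsq : ∀ b ∈ B, (b ^ 2) ^ 2 ^ m = 1 := by
        intro b hb
        rw [← pow_mul, mul_comm, pow_mul]
        exact hZ2 _ (hmZ b hb)
      have hPZ : ∀ z ∈ Z, z ^ 2 ^ m = 1 := by
        intro z hz
        obtain ⟨r, hr, rfl⟩ := hroot z hz
        exact hPsq r hr
      have hBW : ∀ b ∈ B, ∀ w ∈ W, b * w = w * b := fun b hb w hw => (mem_centralizer_iff.mp hb w hw).symm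
      -- (1) elements of `W` with square a square of `B` lie in `B`
      have hstep1 : ∀ w ∈ W, (∃ b ∈ B, b ^ 2 = w ^ 2) → w ∈ B := by
        rintro w hw ⟨b, hb, hbw⟩
        set u := w * b⁻¹ with hu
        have huW : u ∈ W := W.mul_mem hw (h3 (B.inv_mem hb))
        have hcm : Commute w b⁻¹ := (hBW _ (B.inv_mem hb) w hw).symm
        have hu2 : u ^ 2 = 1 := by rw [hu, hcm.mul_pow, inv_pow, hbw, mul_inv_cancel]
        have hui : u⁻¹ = u := inv_eq_of_mul_eq_one_left (by rw [← pow_two]; exact hu2)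
        have huZ : u ∈ Z := by
          apply mem_of_conj hne Z hZn hZ2 hZcard u hu2 (fun k hk => mem_center_iff.mp (hZcen hk) u)
          intro g
          have h4 : u⁻¹ * (g * u * g⁻¹) = ⁅u⁻¹, g⁆ := by rw [commutatorElement_def]; group
          have hcB : u⁻¹ * (g * u * g⁻¹) ∈ B := by
            rw [h4]; exact hWc _ (W.inv_mem huW) g
          refine ⟨hcB, ?_⟩
          set c := u⁻¹ * (g * u * g⁻¹) with hc
          have h5 : u * c = g * u * g⁻¹ := by rw [hc]; group
          have h6 : (u * c) ^ 2 = 1 := by rw [h5, conj_pow, hu2, mul_one, mul_inv_cancel]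
          have hcm2 : Commute u c := (hBW c hcB u huW).symm
          rw [hcm2.mul_pow, hu2, one_mul] at h6
          exact h6
        have h4 : w = u * b := by rw [hu]; group
        rw [h4]
        exact B.mul_mem huZ.1 hb
      have hstep1' : ∀ w ∈ W, (w ^ 2) ^ 2 ^ m = 1 → w ∈ B := by
        intro w hw hw2
        exact hstep1 w hw (hmsq _ (hWsq w hw) hw2)
      -- commutators in `W` lie in `Z`
      have hWW : ∀ w ∈ W, ∀ v ∈ W, ⁅w, v⁆ ∈ Z := by
        intro w hw v hv
        refine ⟨hWc w hw v, ?_⟩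
        have h4 : ⁅w ^ 2, v⁆ = 1 := by
          rw [commutatorElement_eq_one_iff_mul_comm]
          exact hBW _ (hWsq w hw) v hv
        have h5 : ⁅w ^ 2, v⁆ = w * ⁅w, v⁆ * w⁻¹ * ⁅w, v⁆ := by
          rw [pow_two]; simp only [commutatorElement_def]; group
        rw [h5, ← hBW _ (hWc w hw v) w hw, mul_assoc ⁅w, v⁆ w, mul_inv_cancel, mul_one] at h4
        rw [pow_two]
        exact h4
      have hmulsq : ∀ w ∈ W, ∀ v ∈ W, (w * v) ^ 2 = w ^ 2 * v ^ 2 * ⁅v, w⁆ := by
        intro w hw v hv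
        have h4 : ∀ g : X, g * ⁅v, w⁆ = ⁅v, w⁆ * g := fun g => mem_center_iff.mp (hZcen (hWW v hv w hw)) g
        calc (w * v) ^ 2 = w * (⁅v, w⁆ * (w * v)) * v := by
              rw [commutatorElement_def, pow_two]; group
          _ = w * ((w * v) * ⁅v, w⁆) * v := by rw [h4]
          _ = w * w * v * (⁅v, w⁆ * v) := by group
          _ = w ^ 2 * v ^ 2 * ⁅v, w⁆ := by rw [← h4 v, pow_two, pow_two]; group
      have hPmul : ∀ w ∈ W, ∀ v ∈ W, ((w * v) ^ 2) ^ 2 ^ m = (w ^ 2) ^ 2 ^ m * (v ^ 2) ^ 2 ^ m := by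
        intro w hw v hv
        have hb1 := hWsq w hw
        have hb2 := hWsq v hv
        have hz := hWW v hv w hw
        have hcm1 : Commute (w ^ 2 * v ^ 2) ⁅v, w⁆ := hBcomm _ (B.mul_mem hb1 hb2) _ hz.1
        have hcm2 : Commute (w ^ 2) (v ^ 2) := hBcomm _ hb1 _ hb2
        rw [hmulsq w hw v hv, hcm1.mul_pow, hcm2.mul_pow, hPZ _ hz, mul_one]
      -- `a³` is trivial on `W`
      have hcubeW : ∀ w ∈ W, (a * a * a) w = w := by
        intro w hw
        set ψ := a * a * a with hψ
        have hψo : ψ ^ Nat.card A = 1 := by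
          have h4 : (⟨ψ, hcube3⟩ : A) ^ Nat.card A = 1 := pow_card_eq_one'
          exact congrArg (fun t : A => (t : MulAut X)) h4
        set c := w⁻¹ * ψ w with hc
        have hcW : c ∈ W := W.mul_mem (W.inv_mem hw) (hWinv ψ w hw)
        have hcB : c ∈ B := by
          apply hstep1' c hcW
          rw [hc, hPmul _ (W.inv_mem hw) _ (hWinv ψ w hw), ← map_pow ψ, show ψ (w ^ 2) = w ^ 2 from hcubeB _ (hWsq w hw),
            inv_pow, inv_pow, inv_mul_cancel]
        have hψc : ψ c = c := hcubeB c hcB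
        have hψw : ψ w = w * c := by rw [hc]; group
        have hpow : ∀ i : ℕ, (ψ ^ i) w = w * c ^ i := by
          intro i
          induction i with
          | zero => simp
          | succ i ih =>
            rw [pow_succ', MulAut.mul_apply, ih, map_mul, map_pow, hψc, hψw, mul_assoc, ← pow_succ']
        have h4 := hpow (Nat.card A)
        rw [hψo, MulAut.one_apply] at h4
        have h5 : c ^ Nat.card A = 1 := by simpa using h4
        have h6 : c = 1 := by
          obtain ⟨k, hk⟩ := htwo c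
          have h7 : orderOf c ∣ 2 ^ k := orderOf_dvd_of_pow_eq_one hk
          have h8 : orderOf c ∣ Nat.card A := orderOf_dvd_of_pow_eq_one h5
          have h9 : (Nat.card A).Coprime (2 ^ k) := Nat.Coprime.pow_right k (Nat.coprime_two_right.mpr hA)
          have h10 := Nat.dvd_gcd h8 h7
          rw [h9.gcd_eq_one] at h10
          exact orderOf_eq_one_iff.mp (Nat.dvd_one.mp h10)
        rw [hψw, h6, mul_one]
      have hcop : ∀ ψ ∈ A, Nat.Coprime (orderOf ψ) 2 := by
        intro ψ hψ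
        have h4 : orderOf ψ ∣ Nat.card A := by
          rw [← orderOf_mk ψ hψ]
          exact orderOf_dvd_natCard _
        exact (Nat.coprime_two_right.mpr (Odd.of_dvd_nat hA h4))
      have hfaith : ∀ ψ ∈ A, (∀ w ∈ W, ψ w = w) → ψ = 1 := fun ψ hψ hfix =>
        Cfsg.Agent.S0121.result hX W hWch h1 h2 h3 ψ (hcop ψ hψ) hfix
      have hcube1 : a * a * a = 1 := hfaith _ hcube3 hcubeW
      have hcubeX : ∀ x, a (a (a x)) = x := by
        intro x
        have h4 : (a * a * a) x = x := by rw [hcube1, MulAut.one_apply]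
        exact h4
      -- `W = B`
      have hWB : ∀ w ∈ W, w ∈ B := by
        intro w hw
        by_contra hwB
        have haw := hWinv a w hw
        have haaw := hWinv a _ haw
        -- the norm of `w` lies in `B`
        have ht : w * a w * a (a w) ∈ B := by
          apply hstep1' _ (W.mul_mem (W.mul_mem hw haw) haaw)
          rw [hPmul _ (W.mul_mem hw haw) _ haaw, hPmul _ hw _ haw]
          have h4 := hHB.norm _ (B.pow_mem (hWsq w hw) (2 ^ m))
          simp only [map_pow] at h4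
          exact h4
        have hs := hWW w hw (a w) haw
        have hs2 := hWW w hw (a (a w)) haaw
        -- `[w, aw][w, aaw] = 1`
        have h4 : ⁅w, a w⁆ * ⁅w, a (a w)⁆ = 1 := by
          have h5 : ⁅w, w * a w * a (a w)⁆ = 1 := by
            rw [commutatorElement_eq_one_iff_mul_comm]
            exact (hBW _ ht w hw).symm
          have h6 : ⁅w, w * a w * a (a w)⁆ = w * (⁅w, a w⁆ * (a w * ⁅w, a (a w)⁆ * (a w)⁻¹)) * w⁻¹ := by
            simp only [commutatorElement_def]; group
          rw [h6, ← hBW _ hs2.1 _ haw, mul_assoc _ (a w), mul_inv_cancel, mul_one] at h5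
          have h7 := congrArg (fun t => w⁻¹ * t * w) h5
          simpa [mul_assoc] using h7
        have h5 : a (a ⁅w, a w⁆) = ⁅w, a w⁆ := by
          rw [map_commutatorElement, map_commutatorElement, hcubeX, ← commutatorElement_inv]
          exact (eq_inv_of_mul_eq_one_left h4).symm
        have h6 : ⁅w, a w⁆ = 1 := by
          apply hfpfZ _ hs
          exact apply_eq_of_apply_apply_eq a _ hA hao _ h5
        have h7 : ⁅w, a (a w)⁆ = 1 := by rw [h6, one_mul] at h4; exact h4
        -- `w` centralizes `W`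
        apply hwB
        rw [hBdef, mem_centralizer_iff]
        intro v hv
        have hPw : (w ^ 2) ^ 2 ^ m ≠ 1 := fun h8 => hwB (hstep1' w hw h8)
        have hPv : (v ^ 2) ^ 2 ^ m ∈ Z := hmZ _ (hWsq v hv)
        have key : ∀ u ∈ W, u * w = w * u → (v ^ 2) ^ 2 ^ m = (u ^ 2) ^ 2 ^ m → v * w = w * v := by
          intro u hu huw hvu
          have h8 : v * u⁻¹ ∈ B := by
            apply hstep1' _ (W.mul_mem hv (W.inv_mem hu))
            rw [hPmul _ hv _ (W.inv_mem hu), hvu, inv_pow, inv_pow, mul_inv_cancel]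
          have h9 : v = v * u⁻¹ * u := by group
          rw [h9]
          set b := v * u⁻¹
          rw [mul_assoc, huw, ← mul_assoc, hBW b h8 w hw, mul_assoc]
        rcases horb _ (hmZ _ (hWsq w hw)) hPw _ hPv with h8 | h8 | h8 | h8
        · exact (hBW v (hstep1' v hv h8) w hw)
        · exact key w hw rfl h8
        · exact key (a w) haw (commutatorElement_eq_one_iff_mul_comm.mp h6).symm (by
            rw [h8, map_pow, map_pow])
        · exact key (a (a w)) haaw (commutatorElement_eq_one_iff_mul_comm.mp h7).symm (by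
            rw [h8]; simp only [map_pow])
      -- `A = {1, a, a²}`
      have hA3 : ∀ φ ∈ A, φ = 1 ∨ φ = a ∨ φ = a * a := by
        intro φ hφ
        have hfix1 : ∀ ψ ∈ A, ψ z₀ = z₀ → ψ = 1 := by
          intro ψ hψ hψz
          have hψo : ψ ^ Nat.card A = 1 := by
            have h4 : (⟨ψ, hψ⟩ : A) ^ Nat.card A = 1 := pow_card_eq_one'
            exact congrArg (fun t : A => (t : MulAut X)) h4
          apply hfaith ψ hψ
          intro w hw
          apply hBtriv ψ hψ _ w (hWB w hw)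
          by_contra hcon
          push Not at hcon
          exact hz₀1 (fpf_four Z hZcard hZ2 ψ (hZinv ψ) _ hA hψo hcon z₀ hz₀ hψz)
        have hφz : φ z₀ ≠ 1 := fun h4 => hz₀1 ((map_eq_one_iff φ φ.injective).mp h4)
        rcases horb z₀ hz₀ hz₀1 _ (hZinv φ z₀ hz₀) with h4 | h4 | h4 | h4
        · exact absurd h4 hφz
        · exact Or.inl (hfix1 φ hφ h4)
        · right; left
          have h5 := hfix1 (a⁻¹ * φ) (A.mul_mem (A.inv_mem haA) hφ) (by
            rw [MulAut.mul_apply, h4, ← MulAut.mul_apply, inv_mul_cancel, MulAut.one_apply])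
          exact (inv_mul_eq_one.mp h5).symm
        · right; right
          have h5 := hfix1 ((a * a)⁻¹ * φ) (A.mul_mem (A.inv_mem (A.mul_mem haA haA)) hφ) (by
            rw [MulAut.mul_apply, h4]
            show (a * a)⁻¹ ((a * a) z₀) = z₀
            rw [← MulAut.mul_apply, inv_mul_cancel, MulAut.one_apply])
          exact (inv_mul_eq_one.mp h5).symm
      have hHX : HX a B Z := ⟨hHB, hcubeX, hBn, hZcen, fun x hx => by
        rw [hBdef, mem_centralizer_iff]
        intro w hw
        exact (hx w (hWB w hw)).symm, fun N hN hNc x => norm3_mem A a hcubeX hA3 hXA N hN hNc x, hne⟩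
      have hBtop : B ≠ ⊤ := by
        intro h4
        apply hna
        exact ⟨⟨fun x y => hBcomm x (h4 ▸ mem_top x) y (h4 ▸ mem_top y)⟩⟩
      have h44 := hHX.pow_four hBtop
      have hsqZ := hHX.sq_mem h44
      have hcomZ : ∀ x y : X, ⁅x, y⁆ ∈ Z := comm_mem_of_sq Z hZcen hsqZ
      have hcomne : ∃ d ∈ commutator X, d ∈ Z ∧ d ≠ 1 := by
        by_contra hcon
        push Not at hcon
        apply hna
        refine ⟨⟨fun x y => ?_⟩⟩
        rw [← commutatorElement_eq_one_iff_mul_comm]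
        exact hcon _ (commutator_mem_commutator (mem_top x) (mem_top y)) (hcomZ x y)
      have hZcom : Z ≤ commutator X := by
        apply hirr _ hcomne
        intro d hd
        have h5 : (commutator X).map a.toMonoidHom = commutator X := by
          rw [_root_.commutator_def, map_commutator, map_top_of_surjective _ a.surjective]
        rw [← h5]
        exact mem_map_of_mem _ hd
      have hcenZ : ∀ c ∈ center X, c ∈ Z := by
        intro c hc
        have hcB : c ∈ B := center_le_centralizer _ hc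
        refine ⟨hcB, ?_⟩
        by_contra hc2
        apply hBtop
        rw [eq_top_iff]
        intro x _
        apply hHX.cen
        intro b hb
        rw [← commutatorElement_eq_one_iff_mul_comm]
        exact hHX.claim4 x (b := c) ⟨hcB, h44 c hcB⟩ hc2
          (commutatorElement_eq_one_iff_mul_comm.mpr (mem_center_iff.mp hc x)) b ⟨hb, h44 b hb⟩
      exact mkHS hX hne A hA hXA (fun x => hZcen (hsqZ x)) (fun z hz => hZ2 z (hcenZ z hz))
        (fun z hz => hZcom (hcenZ z hz))

end Main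

end Cfsg.Agent.H19.Scn3
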